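import Cfsg.Agent.Lib.H21.CharLinear
import Cfsg.Agent.Lib.H22.Degree
import Cfsg.Agent.Lib.H06.Coher
import Mathlib

/-! Characters of a group with a normal subgroup acting like a Frobenius kernel. -/

set_option autoImplicit false
set_option linter.style.haveILetI false
set_option linter.unusedSectionVars false
set_option linter.unusedVariables false

namespace Cfsg.Agent.H04.TIF

open Cfsg Cfsg.Agent.H21 Module
open scoped ComplexConjugate

universe u

variable {L : Type u} [Group L] [Fintype L] (K : Subgroup L) [hKn : K.Normal]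

include hKn in
/-- Sum of an irreducible representation over a normal subgroup not in its kernel vanishes. -/
theorem sum_rep_eq_zero {n : ℕ} (ρ : Representation ℂ L (Fin n → ℂ)) (hρ : ρ.IsIrreducible)
    (hne : ∃ k ∈ K, ρ.character k ≠ ρ.character 1) [Fintype K] :
    ∑ k : K, ρ (k : L) = 0 := by
  classical
  set T : Module.End ℂ (Fin n → ℂ) := ∑ k : K, ρ (k : L) with hT
  have hcomm : ∀ g, T ∘ₗ ρ g = ρ g ∘ₗ T := by
    intro g
    have h1 : ρ g ∘ₗ T = ∑ k : K, ρ (g * (k : L)) := by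
      rw [hT]
      apply LinearMap.ext; intro x
      simp [LinearMap.sum_apply, map_mul]
    have h2 : T ∘ₗ ρ g = ∑ k : K, ρ ((k : L) * g) := by
      rw [hT]
      apply LinearMap.ext; intro x
      simp [LinearMap.sum_apply, map_mul]
    rw [h1, h2]
    let σ : K ≃ K :=
      { toFun := fun k => ⟨g * k * g⁻¹, hKn.conj_mem k k.2 g⟩
        invFun := fun k => ⟨g⁻¹ * k * g, by simpa using hKn.conj_mem k k.2 g⁻¹⟩
        left_inv := fun k => by ext; simp [mul_assoc]
        right_inv := fun k => by ext; simp [mul_assoc] }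
    rw [← Equiv.sum_comp σ]
    apply Finset.sum_congr rfl
    intro k _
    congr 1
    show (g * k * g⁻¹ : L) * g = g * k
    group
  obtain ⟨c, hc⟩ := schur_scalar ρ hρ T hcomm
  have hleft : ∀ k₀ : K, ρ (k₀ : L) ∘ₗ T = T := by
    intro k₀
    have h1 : ρ (k₀ : L) ∘ₗ T = ∑ k : K, ρ ((k₀ * k : K) : L) := by
      rw [hT]
      apply LinearMap.ext; intro x
      simp [LinearMap.sum_apply, map_mul]
    rw [h1, hT]
    exact Equiv.sum_comp (Equiv.mulLeft k₀) (fun k : K => ρ (k : L))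
  by_cases hc0 : c = 0
  · rw [hc, hc0, zero_smul]
  exfalso
  obtain ⟨k, hk, hne⟩ := hne
  have h2 := hleft ⟨k, hk⟩
  rw [hc] at h2
  have h3 : ρ k = 1 := by
    apply LinearMap.ext; intro x
    have h4 := LinearMap.congr_fun h2 x
    simp only [LinearMap.comp_apply, LinearMap.smul_apply, Module.End.one_apply, map_smul] at h4
    have h5 := smul_right_injective (Fin n → ℂ) hc0 h4
    simpa using h5
  apply hne
  simp [Representation.character, h3]

include hKn in
theorem sum_char_eq_zero {χ : L → ℂ} (hχ : IsIrrCharacter L χ) (hne : ∃ k ∈ K, χ k ≠ χ 1)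
    [Fintype K] (x : L) : ∑ k : K, χ (x * k) = 0 := by
  obtain ⟨n, ρ, hρ, rfl⟩ := hχ
  have h1 := sum_rep_eq_zero K ρ hρ hne
  have h2 : ∑ k : K, ρ.character (x * k) = LinearMap.trace ℂ _ (ρ x * ∑ k : K, ρ (k : L)) := by
    rw [Finset.mul_sum, map_sum]
    apply Finset.sum_congr rfl
    intro k _
    rw [Representation.character, map_mul]
  rw [h2, h1, mul_zero, map_zero]

variable {K}

include hKn in
theorem exists_conj_of_not_mem (hfrob : ∀ k ∈ K, k ≠ 1 → ∀ x : L, x * k = k * x → x ∈ K)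
    {x : L} (hx : x ∉ K) {k : L} (hk : k ∈ K) : ∃ u : L, u⁻¹ * x * u = x * k := by
  classical
  let φ : K → K := fun u => ⟨x⁻¹ * (u : L)⁻¹ * x * u, K.mul_mem (by
      have := hKn.conj_mem _ (K.inv_mem u.2) x⁻¹
      simpa using this) u.2⟩
  have hφ : Function.Injective φ := by
    intro u v huv
    have h1 : x⁻¹ * (u : L)⁻¹ * x * u = x⁻¹ * (v : L)⁻¹ * x * v := congrArg Subtype.val huv
    have h2 : (u : L)⁻¹ * x * u = (v : L)⁻¹ * x * v := by
      have := congrArg (fun z => x * z) h1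
      simpa [mul_assoc] using this
    set w : L := (v : L) * (u : L)⁻¹ with hw
    have hwK : w ∈ K := K.mul_mem v.2 (K.inv_mem u.2)
    have h3 : x * w = w * x := by
      rw [hw]
      have h4 : x * (u : L)⁻¹⁻¹ = (u : L) * ((u : L)⁻¹ * x * (u : L)) := by group
      calc x * ((v : L) * (u : L)⁻¹)
          = (v : L) * ((v : L)⁻¹ * x * (v : L)) * (u : L)⁻¹ := by group
        _ = (v : L) * ((u : L)⁻¹ * x * (u : L)) * (u : L)⁻¹ := by rw [h2]
        _ = _ := by group
    by_contra huv'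
    have hw1 : w ≠ 1 := by
      intro h
      apply huv'
      apply Subtype.ext
      rw [hw, mul_inv_eq_one] at h
      exact h.symm
    exact hx (hfrob w hwK hw1 x h3)
  have hsurj := (Finite.injective_iff_surjective.mp hφ) ⟨k, hk⟩
  obtain ⟨u, hu⟩ := hsurj
  have h1 : x⁻¹ * (u : L)⁻¹ * x * u = k := congrArg Subtype.val hu
  refine ⟨u, ?_⟩
  rw [← h1]
  group

include hKn in
theorem char_vanish (hfrob : ∀ k ∈ K, k ≠ 1 → ∀ x : L, x * k = k * x → x ∈ K) {χ : L → ℂ}
    (hχ : IsIrrCharacter L χ) (hne : ∃ k ∈ K, χ k ≠ χ 1) {x : L} (hx : x ∉ K) : χ x = 0 := by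
  classical
  haveI : Fintype K := Fintype.ofFinite _
  have h1 := sum_char_eq_zero K hχ hne x
  have hcl : ∀ g k : L, χ (k * g * k⁻¹) = χ g := fun g k => isCharacter_conj (isCharacter_of_irr hχ) g k
  have h2 : ∀ k : K, χ (x * k) = χ x := by
    intro k
    obtain ⟨u, hu⟩ := exists_conj_of_not_mem hfrob hx k.2
    rw [← hu]
    have := hcl x u⁻¹
    simpa using this
  rw [Finset.sum_congr rfl (fun k _ => h2 k)] at h1
  simp only [Finset.sum_const, Finset.card_univ, nsmul_eq_mul] at h1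
  rcases mul_eq_zero.mp h1 with h3 | h3
  · exfalso
    have : (Fintype.card K : ℂ) ≠ 0 := by
      exact Nat.cast_ne_zero.mpr Fintype.card_ne_zero
    exact this h3
  · exact h3

include hKn in
theorem coprime_of_frob (hfrob : ∀ k ∈ K, k ≠ 1 → ∀ x : L, x * k = k * x → x ∈ K) :
    Nat.Coprime (Nat.card K) K.index := by
  classical
  rw [Nat.coprime_iff_gcd_eq_one] 
  by_contra hne
  obtain ⟨p, hp, hpd⟩ := Nat.exists_prime_and_dvd hne
  haveI := Fact.mk hp
  have hpK : p ∣ Nat.card K := hpd.trans (Nat.gcd_dvd_left _ _)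
  have hpi : p ∣ K.index := hpd.trans (Nat.gcd_dvd_right _ _)
  obtain ⟨y, hy⟩ := exists_prime_orderOf_dvd_card' p hpK
  have hy' : orderOf (y : L) = p := by rw [Subgroup.orderOf_coe]; exact hy
  have hy1 : (y : L) ≠ 1 := by
    intro h
    rw [h, orderOf_one] at hy'
    exact hp.one_lt.ne hy'
  have hzp : IsPGroup p (Subgroup.zpowers (y : L)) := by
    apply IsPGroup.of_card (n := 1)
    rw [Nat.card_zpowers, hy', pow_one]
  obtain ⟨P, hP⟩ := hzp.exists_le_sylow
  have hyP : (y : L) ∈ (P : Subgroup L) := hP (Subgroup.mem_zpowers _)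
  have hPK : ¬ (P : Subgroup L) ≤ K := by
    intro h
    exact P.not_dvd_index (hpi.trans (Subgroup.index_dvd_of_le h))
  obtain ⟨x, hxP, hxK⟩ := Set.not_subset.mp hPK
  haveI : Nontrivial (P : Subgroup L) := ⟨⟨⟨y, hyP⟩, 1, fun h => hy1 (congrArg Subtype.val h)⟩⟩
  haveI : Nontrivial (Subgroup.center (P : Subgroup L)) := P.isPGroup'.center_nontrivial
  obtain ⟨z, hz⟩ := exists_ne (1 : Subgroup.center (P : Subgroup L))
  have hz1 : (((z : (P : Subgroup L))) : L) ≠ 1 := by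
    intro h
    apply hz
    apply Subtype.ext
    apply Subtype.ext
    exact h
  have hzc : ∀ w : (P : Subgroup L), (w : L) * ((z : (P : Subgroup L)) : L) = ((z : (P : Subgroup L)) : L) * w := by
    intro w
    have := (Subgroup.mem_center_iff.mp z.2) w
    have h2 := congrArg Subtype.val this
    exact h2
  by_cases hzK : ((z : (P : Subgroup L)) : L) ∈ K
  · exact hxK (hfrob _ hzK hz1 x (hzc ⟨x, hxP⟩))
  · exact hzK (hfrob y y.2 hy1 _ (hzc ⟨y, hyP⟩).symm)

include hKn in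
/-- Degrees are multiples of the index. -/
theorem index_dvd_deg (hfrob : ∀ k ∈ K, k ≠ 1 → ∀ x : L, x * k = k * x → x ∈ K) {χ : L → ℂ}
    (hχ : IsIrrCharacter L χ) (hne : ∃ k ∈ K, χ k ≠ χ 1) : K.index ∣ charDegree χ := by
  classical
  obtain ⟨E, hE⟩ := Subgroup.exists_right_complement'_of_coprime (coprime_of_frob hfrob)
  have hidx : K.index = Nat.card E := hE.symm.index_eq_card
  haveI : Fintype E := Fintype.ofFinite _
  have hres := isCharacter_restrict E (isCharacter_of_irr hχ)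
  obtain ⟨n, hn⟩ := classInner_isCharacter_nat hres (isCharacter_one (G := E))
  have hdisj := hE.disjoint
  have hv : ∀ x : E, (x : L) ≠ 1 → χ x = 0 := by
    intro x hx
    apply char_vanish hfrob hχ hne
    intro hxK
    have : (x : L) ∈ K ⊓ E := ⟨hxK, x.2⟩
    rw [hdisj.eq_bot, Subgroup.mem_bot] at this
    exact hx this
  have h1 : ∑ x : E, (fun x : E => χ x) x * (starRingEnd ℂ) ((fun _ : E => (1 : ℂ)) x) = χ 1 := by
    rw [Finset.sum_eq_single (1 : E)]
    · simp
    · intro x _ hx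
      have : (x : L) ≠ 1 := fun h => hx (Subtype.ext h)
      simp [hv x this]
    · simp
  rw [classInner, h1] at hn
  have hcard : (Nat.card E : ℂ) ≠ 0 := Nat.cast_ne_zero.mpr Nat.card_pos.ne'
  have h2 : χ 1 = (Nat.card E : ℂ) * n := by
    rw [← hn]
    field_simp
  have h3 := one_eq_charDegree (isCharacter_of_irr hχ)
  rw [h2] at h3
  have h4 : charDegree χ = Nat.card E * n := by exact_mod_cast h3.symm
  rw [hidx, h4]
  exact dvd_mul_right _ _

variable (K)
variable [Fintype (IrrCharacter L)]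

open scoped Classical in
/-- The irreducible characters not having `K` in their kernel. -/
noncomputable def SF : Finset (IrrCharacter L) :=
  Finset.univ.filter (fun φ => ∃ k ∈ K, (φ : L → ℂ) k ≠ (φ : L → ℂ) 1)

/-- The normalized degree. -/
noncomputable def dd (φ : IrrCharacter L) : ℕ := charDegree (φ : L → ℂ) / K.index

theorem mem_SF {φ : IrrCharacter L} : φ ∈ SF K ↔ ∃ k ∈ K, (φ : L → ℂ) k ≠ (φ : L → ℂ) 1 := by
  simp [SF]

theorem index_pos : 0 < K.index := Nat.pos_of_ne_zero (Subgroup.index_ne_zero_of_finite)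

include hKn in
open scoped Classical in
/-- `∑_{φ ∉ S} φ(1)² = [L : K]`. -/
theorem sum_nonS_deg_sq :
    ∑ φ ∈ (Finset.univ : Finset (IrrCharacter L)) \ SF K, charDegree (φ : L → ℂ) ^ 2 = K.index := by
  haveI : Fintype K := Fintype.ofFinite _
  have h0 : ∀ φ : IrrCharacter L, φ ∉ SF K → ∀ k ∈ K, (φ : L → ℂ) k = charDegree (φ : L → ℂ) := by
    intro φ hφ k hk
    rw [mem_SF] at hφ
    push Not at hφ
    rw [hφ k hk, one_eq_charDegree (isCharacter_of_irr φ.2)]
  -- sum over `K`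
  have h1 : ∑ k : K, ∑ φ : IrrCharacter L, (charDegree (φ : L → ℂ) : ℂ) * (φ : L → ℂ) k = (Nat.card L : ℂ) := by
    rw [Finset.sum_eq_single (1 : K)]
    · have h2 := sum_degree_sq (G := L)
      have h3 : ((∑ χ : IrrCharacter L, charDegree (χ : L → ℂ) ^ 2 : ℕ) : ℂ) = (Nat.card L : ℂ) := by
        rw [h2]
      rw [← h3]
      push_cast
      apply Finset.sum_congr rfl
      intro φ _
      rw [one_eq_charDegree (isCharacter_of_irr φ.2)]
      ring
    · intro k _ hk
      exact sum_degree_mul_value_ne (fun h => hk (Subtype.ext h))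
    · simp
  rw [Finset.sum_comm] at h1
  have h2 : ∀ φ : IrrCharacter L, ∑ k : K, (charDegree (φ : L → ℂ) : ℂ) * (φ : L → ℂ) k =
      if φ ∈ SF K then 0 else (Nat.card K : ℂ) * ((charDegree (φ : L → ℂ) ^ 2 : ℕ) : ℂ) := by
    intro φ
    split_ifs with hφ
    · rw [← Finset.mul_sum]
      have h3 := sum_char_eq_zero K φ.2 ((mem_SF K).mp hφ) 1
      simp only [one_mul] at h3
      rw [h3, mul_zero]
    · rw [Finset.sum_congr rfl (fun k _ => by rw [h0 φ hφ k k.2])]
      simp only [Finset.sum_const, Finset.card_univ, nsmul_eq_mul]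
      rw [Nat.card_eq_fintype_card]
      push_cast
      ring
  rw [Finset.sum_congr rfl (fun φ _ => h2 φ), Finset.sum_ite, Finset.sum_const_zero, zero_add] at h1
  rw [← Finset.mul_sum] at h1
  have h3 : (Finset.univ.filter (fun x : IrrCharacter L => x ∉ SF K)) = Finset.univ \ SF K := by
    ext x; simp
  rw [h3] at h1
  have h4 : Nat.card K * ∑ φ ∈ (Finset.univ : Finset (IrrCharacter L)) \ SF K, charDegree (φ : L → ℂ) ^ 2 = Nat.card L := by
    exact_mod_cast h1
  have h5 := Subgroup.card_mul_index K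
  exact Nat.eq_of_mul_eq_mul_left Nat.card_pos (h4.trans h5.symm)

include hKn in
open scoped Classical in
theorem sum_S_deg_value {k : L} (hk : k ∈ K) (hk1 : k ≠ 1) :
    ∑ φ ∈ SF K, (charDegree (φ : L → ℂ) : ℂ) * (φ : L → ℂ) k = -(K.index : ℂ) := by
  have h0 : ∀ φ : IrrCharacter L, φ ∉ SF K → (φ : L → ℂ) k = charDegree (φ : L → ℂ) := by
    intro φ hφ
    rw [mem_SF] at hφ
    push Not at hφ
    rw [hφ k hk, one_eq_charDegree (isCharacter_of_irr φ.2)]
  have h1 := sum_degree_mul_value_ne (G := L) hk1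
  rw [← Finset.sum_sdiff (Finset.subset_univ (SF K))] at h1
  have h2 : ∑ φ ∈ (Finset.univ : Finset (IrrCharacter L)) \ SF K, (charDegree (φ : L → ℂ) : ℂ) * (φ : L → ℂ) k = (K.index : ℂ) := by
    rw [← sum_nonS_deg_sq K]
    push_cast
    apply Finset.sum_congr rfl
    intro φ hφ
    rw [h0 φ (Finset.mem_sdiff.mp hφ).2]
    ring
  rw [h2] at h1
  linear_combination h1

include hKn in
open scoped Classical in
theorem sum_S_deg_sq : ∑ φ ∈ SF K, charDegree (φ : L → ℂ) ^ 2 + K.index = Nat.card L := by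
  have h1 := sum_degree_sq (G := L)
  rw [← Finset.sum_sdiff (Finset.subset_univ (SF K)), sum_nonS_deg_sq K] at h1
  omega

include hKn in
theorem deg_eq (hfrob : ∀ k ∈ K, k ≠ 1 → ∀ x : L, x * k = k * x → x ∈ K) {φ : IrrCharacter L}
    (hφ : φ ∈ SF K) : charDegree (φ : L → ℂ) = K.index * dd K φ :=
  (Nat.mul_div_cancel' (index_dvd_deg hfrob φ.2 ((mem_SF K).mp hφ))).symm

include hKn in
theorem dd_pos (hfrob : ∀ k ∈ K, k ≠ 1 → ∀ x : L, x * k = k * x → x ∈ K) {φ : IrrCharacter L}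
    (hφ : φ ∈ SF K) : 0 < dd K φ := by
  have h1 := deg_eq K hfrob hφ
  have h2 := irr_charDegree_pos φ.2
  rw [h1] at h2
  exact Nat.pos_of_ne_zero (by rintro h0; rw [h0] at h2; simp at h2)

include hKn in
theorem dd_dvd (hfrob : ∀ k ∈ K, k ≠ 1 → ∀ x : L, x * k = k * x → x ∈ K) {φ : IrrCharacter L}
    (hφ : φ ∈ SF K) : dd K φ ∣ Nat.card K := by
  have h1 := H22.charDegree_dvd_card φ
  rw [deg_eq K hfrob hφ, ← Subgroup.card_mul_index K, mul_comm (Nat.card K)] at h1
  exact Nat.dvd_of_mul_dvd_mul_left (index_pos K) h1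

include hKn in
open scoped Classical in
theorem sum_dd_value (hfrob : ∀ k ∈ K, k ≠ 1 → ∀ x : L, x * k = k * x → x ∈ K) {k : L} (hk : k ∈ K)
    (hk1 : k ≠ 1) : ∑ φ ∈ SF K, (dd K φ : ℂ) * (φ : L → ℂ) k = -1 := by
  have h1 := sum_S_deg_value K hk hk1
  have h2 : (K.index : ℂ) ≠ 0 := Nat.cast_ne_zero.mpr (index_pos K).ne'
  have h3 : ∑ φ ∈ SF K, (charDegree (φ : L → ℂ) : ℂ) * (φ : L → ℂ) k = (K.index : ℂ) * ∑ φ ∈ SF K, (dd K φ : ℂ) * (φ : L → ℂ) k := by
    rw [Finset.mul_sum]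
    apply Finset.sum_congr rfl
    intro φ hφ
    rw [deg_eq K hfrob hφ]
    push_cast
    ring
  rw [h3] at h1
  apply mul_left_cancel₀ h2
  rw [h1]
  ring

include hKn in
open scoped Classical in
theorem sum_dd_sq (hfrob : ∀ k ∈ K, k ≠ 1 → ∀ x : L, x * k = k * x → x ∈ K) :
    K.index * ∑ φ ∈ SF K, dd K φ ^ 2 + 1 = Nat.card K := by
  have h1 := sum_S_deg_sq K
  have h2 : ∑ φ ∈ SF K, charDegree (φ : L → ℂ) ^ 2 = K.index * (K.index * ∑ φ ∈ SF K, dd K φ ^ 2) := by
    rw [Finset.mul_sum, Finset.mul_sum]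
    apply Finset.sum_congr rfl
    intro φ hφ
    rw [deg_eq K hfrob hφ]
    ring
  rw [h2, ← Subgroup.card_mul_index K, mul_comm (Nat.card K)] at h1
  have h3 : K.index * (K.index * ∑ φ ∈ SF K, dd K φ ^ 2 + 1) = K.index * Nat.card K := by
    rw [mul_add, mul_one]
    exact h1
  exact Nat.eq_of_mul_eq_mul_left (index_pos K) h3

include hKn in
open scoped Classical in
/-- Proportional integers are integral multiples of the normalized degrees. -/
theorem exists_int_multiple (hfrob : ∀ k ∈ K, k ≠ 1 → ∀ x : L, x * k = k * x → x ∈ K)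
    (n : IrrCharacter L → ℤ)
    (hn : ∀ φ₁ ∈ SF K, ∀ φ₂ ∈ SF K, (dd K φ₂ : ℤ) * n φ₁ = dd K φ₁ * n φ₂) :
    ∃ m : ℤ, ∀ φ ∈ SF K, n φ = m * dd K φ := by
  by_cases hne : (SF K).Nonempty
  · obtain ⟨φ₀, hφ₀⟩ := hne
    obtain ⟨q, hq⟩ := dd_dvd K hfrob hφ₀
    refine ⟨(q : ℤ) * n φ₀ - (K.index : ℤ) * ∑ φ ∈ SF K, (dd K φ : ℤ) * n φ, ?_⟩
    intro φ hφ
    have h1 : (dd K φ : ℤ) * n φ₀ = dd K φ₀ * n φ := hn φ₀ hφ₀ φ hφ
    have h2 : (∑ ξ ∈ SF K, (dd K ξ : ℤ) * n ξ) * (dd K φ : ℤ) = (∑ ξ ∈ SF K, (dd K ξ : ℤ) ^ 2) * n φ := by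
      rw [Finset.sum_mul, Finset.sum_mul]
      apply Finset.sum_congr rfl
      intro ξ hξ
      have := hn ξ hξ φ hφ
      linear_combination (dd K ξ : ℤ) * this
    have h3 : (K.index : ℤ) * (∑ ξ ∈ SF K, (dd K ξ : ℤ) ^ 2) + 1 = Nat.card K := by
      exact_mod_cast sum_dd_sq K hfrob
    have h4 : (Nat.card K : ℤ) = dd K φ₀ * q := by exact_mod_cast hq
    rw [sub_mul, mul_assoc, mul_assoc, h2, mul_comm (n φ₀), h1]
    have h5 : (q : ℤ) * ((dd K φ₀ : ℤ) * n φ) = (Nat.card K : ℤ) * n φ := by rw [h4]; ring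
    rw [h5, ← h3]
    ring
  · refine ⟨0, ?_⟩
    intro φ hφ
    exact absurd ⟨φ, hφ⟩ hne

include hKn in
open scoped Classical in
/-- A class function whose inner products are integers, proportional to the normalized degrees on
`S`, is constant on `K \ {1}` with integer value. -/
theorem const_on_K (hfrob : ∀ k ∈ K, k ≠ 1 → ∀ x : L, x * k = k * x → x ∈ K) (f : L → ℂ)
    (hf : IsClassFunction L f) (hint : ∀ φ : IrrCharacter L, ∃ n : ℤ, classInner f (φ : L → ℂ) = n)
    (hprop : ∀ φ₁ ∈ SF K, ∀ φ₂ ∈ SF K,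
      (dd K φ₂ : ℂ) * classInner f (φ₁ : L → ℂ) = dd K φ₁ * classInner f (φ₂ : L → ℂ)) :
    ∃ n : ℤ, ∀ k ∈ K, k ≠ 1 → f k = n := by
  choose a ha using hint
  obtain ⟨m, hm⟩ := exists_int_multiple K hfrob a (by
    intro φ₁ h₁ φ₂ h₂
    have := hprop φ₁ h₁ φ₂ h₂
    rw [ha, ha] at this
    exact_mod_cast this)
  refine ⟨-m + ∑ φ ∈ (Finset.univ : Finset (IrrCharacter L)) \ SF K, a φ * charDegree (φ : L → ℂ), ?_⟩
  intro k hk hk1
  have h1 := congrFun (classFunction_expansion f hf) k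
  simp only [Finset.sum_apply, Pi.smul_apply, smul_eq_mul] at h1
  rw [h1, ← Finset.sum_sdiff (Finset.subset_univ (SF K))]
  have h2 : ∑ φ ∈ SF K, classInner f (φ : L → ℂ) * (φ : L → ℂ) k = -(m : ℂ) := by
    have h3 := sum_dd_value K hfrob hk hk1
    calc ∑ φ ∈ SF K, classInner f (φ : L → ℂ) * (φ : L → ℂ) k
        = (m : ℂ) * ∑ φ ∈ SF K, (dd K φ : ℂ) * (φ : L → ℂ) k := by
          rw [Finset.mul_sum]
          apply Finset.sum_congr rfl
          intro φ hφ
          rw [ha, hm φ hφ]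
          push_cast
          ring
      _ = -(m : ℂ) := by rw [h3]; ring
  have h4 : ∑ φ ∈ (Finset.univ : Finset (IrrCharacter L)) \ SF K, classInner f (φ : L → ℂ) * (φ : L → ℂ) k
      = ∑ φ ∈ (Finset.univ : Finset (IrrCharacter L)) \ SF K, (a φ : ℂ) * charDegree (φ : L → ℂ) := by
    apply Finset.sum_congr rfl
    intro φ hφ
    have h5 := (Finset.mem_sdiff.mp hφ).2
    rw [mem_SF] at h5
    push Not at h5
    rw [ha, h5 k hk, one_eq_charDegree (isCharacter_of_irr φ.2)]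
  rw [h2, h4]
  push_cast
  ring

include hKn in
open scoped Classical in
/-- Two distinct members of `S`: neither is constant on `K \ {1}`. -/
theorem not_const (hfrob : ∀ k ∈ K, k ≠ 1 → ∀ x : L, x * k = k * x → x ∈ K) {χ ξ : IrrCharacter L}
    (hχ : χ ∈ SF K) (hξ : ξ ∈ SF K) (hne : χ ≠ ξ) (v : ℂ)
    (hv : ∀ k ∈ K, k ≠ 1 → (χ : L → ℂ) k = v) : False := by
  haveI : Fintype K := Fintype.ofFinite _
  have hS1 := sum_char_eq_zero K χ.2 ((mem_SF K).mp hχ) 1
  have hS2 := sum_char_eq_zero K ξ.2 ((mem_SF K).mp hξ) 1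
  simp only [one_mul] at hS1 hS2
  rw [← Finset.add_sum_erase _ _ (Finset.mem_univ (1 : K))] at hS1 hS2
  simp only [OneMemClass.coe_one] at hS1 hS2
  have hv' : ∀ k ∈ (Finset.univ : Finset K).erase 1, (χ : L → ℂ) k = v := by
    intro k hk
    exact hv k k.2 (fun h => (Finset.ne_of_mem_erase hk) (Subtype.ext h))
  rw [Finset.sum_congr rfl hv'] at hS1
  simp only [Finset.sum_const, Finset.card_erase_of_mem (Finset.mem_univ (1 : K)), Finset.card_univ, nsmul_eq_mul] at hS1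
  have hin : classInner (ξ : L → ℂ) (χ : L → ℂ) = 0 := H06.classInner_irr_ne ξ.2 χ.2 (fun h => hne (Subtype.ext h).symm)
  rw [classInner] at hin
  have hcard : (Nat.card L : ℂ)⁻¹ ≠ 0 := inv_ne_zero (Nat.cast_ne_zero.mpr Nat.card_pos.ne')
  have hin2 := (mul_eq_zero.mp hin).resolve_left hcard
  -- restrict the sum to `K`
  have hsum : ∑ g : L, (ξ : L → ℂ) g * (starRingEnd ℂ) ((χ : L → ℂ) g) =
      ∑ k : K, (ξ : L → ℂ) k * (starRingEnd ℂ) ((χ : L → ℂ) k) := by
    have h1 : ∀ g : L, g ∉ Finset.univ.filter (fun g : L => g ∈ K) →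
        (ξ : L → ℂ) g * (starRingEnd ℂ) ((χ : L → ℂ) g) = 0 := by
      intro g hg
      have hg' : g ∉ K := by simpa using hg
      rw [char_vanish hfrob ξ.2 ((mem_SF K).mp hξ) hg', zero_mul]
    rw [← Finset.sum_subset (Finset.subset_univ _) (fun g _ hg => h1 g hg)]
    apply Finset.sum_subtype
    intro g
    simp
  rw [hsum, ← Finset.add_sum_erase _ _ (Finset.mem_univ (1 : K))] at hin2
  simp only [OneMemClass.coe_one] at hin2
  have h2 : ∑ k ∈ (Finset.univ : Finset K).erase 1, (ξ : L → ℂ) k * (starRingEnd ℂ) ((χ : L → ℂ) k) =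
      (starRingEnd ℂ) v * ∑ k ∈ (Finset.univ : Finset K).erase 1, (ξ : L → ℂ) k := by
    rw [Finset.mul_sum]
    apply Finset.sum_congr rfl
    intro k hk
    rw [hv' k hk]
    ring
  rw [h2] at hin2
  have hs2 : ∑ k ∈ (Finset.univ : Finset K).erase 1, (ξ : L → ℂ) k = -(ξ : L → ℂ) 1 := by
    linear_combination hS2
  rw [hs2] at hin2
  have hχ1 : (starRingEnd ℂ) ((χ : L → ℂ) 1) = (χ : L → ℂ) 1 := by
    rw [one_eq_charDegree (isCharacter_of_irr χ.2)]
    simp
  rw [hχ1] at hin2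
  have hξ1 : (ξ : L → ℂ) 1 ≠ 0 := H06.irr_one_ne_zero' ξ.2
  have h3 : (χ : L → ℂ) 1 = (starRingEnd ℂ) v := by
    apply mul_left_cancel₀ hξ1
    linear_combination hin2
  have h4 : v = (χ : L → ℂ) 1 := by
    have := congrArg (starRingEnd ℂ) h3
    rw [hχ1, Complex.conj_conj] at this
    exact this.symm
  rw [h4] at hS1
  have h5 : 1 ≤ Fintype.card K := Fintype.card_pos
  have h6 : ((Fintype.card K : ℂ)) * (χ : L → ℂ) 1 = 0 := by
    rw [Nat.cast_sub h5] at hS1
    push_cast at hS1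
    linear_combination hS1
  rcases mul_eq_zero.mp h6 with h7 | h7
  · exact absurd h7 (Nat.cast_ne_zero.mpr Fintype.card_ne_zero)
  · exact H06.irr_one_ne_zero' χ.2 h7

end Cfsg.Agent.H04.TIF
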