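import Cfsg.Agent.Lib.H04.TIF

set_option autoImplicit false
set_option linter.style.haveILetI false
set_option linter.unusedSectionVars false
set_option linter.unusedVariables false

namespace Cfsg.Agent.H04.TIF

open Cfsg Cfsg.Agent.H21 Module
open scoped ComplexConjugate

universe u

variable {G : Type u} [Group G] [Fintype G] (K : Subgroup G)
  [Fintype ↥(Subgroup.normalizer (K : Set G))]

theorem ind_eq_on_K
    (hTI : ∀ g : G, g ∉ Subgroup.normalizer (K : Set G) → ∀ k ∈ K, g * k * g⁻¹ ∈ K → k = 1)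
    (α : ↥(Subgroup.normalizer (K : Set G)) → ℂ) (hα : IsClassFunction _ α)
    (hoff : ∀ x : ↥(Subgroup.normalizer (K : Set G)), (x : G) ∉ K → α x = 0)
    (k : ↥(Subgroup.normalizer (K : Set G))) (hk : (k : G) ∈ K) (hk1 : k ≠ 1) :
    indFun (Subgroup.normalizer (K : Set G)) α k = α k := by
  classical
  rw [indFun]
  have h1 : ∀ x : G, extendByZero (Subgroup.normalizer (K : Set G)) α (x⁻¹ * k * x) =
      if x ∈ Subgroup.normalizer (K : Set G) then α k else 0 := by
    intro x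
    split_ifs with hx
    · have h2 : x⁻¹ * (k : G) * x = ((⟨x, hx⟩⁻¹ * k * ⟨x, hx⟩ : ↥(Subgroup.normalizer (K : Set G))) : G) := by
        simp
      rw [h2, extendByZero_coe]
      have := hα k (⟨x, hx⟩⁻¹)
      simpa using this
    · by_cases h2 : x⁻¹ * (k : G) * x ∈ Subgroup.normalizer (K : Set G)
      · have h3 := extendByZero_coe (Subgroup.normalizer (K : Set G)) α ⟨_, h2⟩
        simp only at h3
        rw [h3]
        apply hoff
        intro h4
        have hxi : x⁻¹ ∉ Subgroup.normalizer (K : Set G) := fun h => hx (by simpa using Subgroup.inv_mem _ h)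
        have h5 := hTI x⁻¹ hxi k hk (by simpa using h4)
        exact hk1 (Subtype.ext h5)
      · exact extendByZero_of_not_mem _ α h2
  rw [Finset.sum_congr rfl (fun x _ => h1 x), Finset.sum_ite, Finset.sum_const_zero, add_zero, Finset.sum_const]
  have h3 : (Finset.univ.filter (fun x : G => x ∈ Subgroup.normalizer (K : Set G))).card = Nat.card (Subgroup.normalizer (K : Set G)) := by
    rw [Nat.card_eq_fintype_card, Fintype.card_subtype]
  rw [h3, nsmul_eq_mul, ← mul_assoc, inv_mul_cancel₀ (Nat.cast_ne_zero.mpr Nat.card_pos.ne'), one_mul]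

omit [Fintype G] [Fintype ↥(Subgroup.normalizer (K : Set G))] in
theorem gen_restrict {G : Type u} [Group G] (H : Subgroup G) {f : G → ℂ} (hf : IsGeneralizedCharacter G f) :
    IsGeneralizedCharacter H (fun x : H => f x) := by
  obtain ⟨A, B, hA, hB, rfl⟩ := hf
  exact ⟨_, _, isCharacter_restrict H hA, isCharacter_restrict H hB, rfl⟩

section Data

variable (hTI : ∀ g : G, g ∉ Subgroup.normalizer (K : Set G) → ∀ k ∈ K, g * k * g⁻¹ ∈ K → k = 1)
  (hC : ∀ k ∈ K, k ≠ 1 → Subgroup.centralizer ({k} : Set G) ≤ K)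
  (S : Set (↥(Subgroup.normalizer (K : Set G)) → ℂ))
  (hS : S = {χ : ↥(Subgroup.normalizer (K : Set G)) → ℂ | Cfsg.IsIrrCharacter ↥(Subgroup.normalizer (K : Set G)) χ ∧ ∃ k : ↥(Subgroup.normalizer (K : Set G)), (k : G) ∈ K ∧ χ k ≠ χ 1})
  (star : (↥(Subgroup.normalizer (K : Set G)) → ℂ) → (G → ℂ))
  (hstar : Cfsg.IsLinearIsometryOn (Cfsg.zspan S) star)
  (hext : ∀ α ∈ Cfsg.zspanOn S ({1}ᶜ : Set ↥(Subgroup.normalizer (K : Set G))), star α = Cfsg.indFun (Subgroup.normalizer (K : Set G)) α)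

instance normK : (K.subgroupOf (Subgroup.normalizer (K : Set G))).Normal :=
  Subgroup.normal_subgroupOf_of_le_normalizer le_rfl

include hC in
theorem hfrobK : ∀ k ∈ K.subgroupOf (Subgroup.normalizer (K : Set G)), k ≠ 1 →
    ∀ x : ↥(Subgroup.normalizer (K : Set G)), x * k = k * x → x ∈ K.subgroupOf (Subgroup.normalizer (K : Set G)) := by
  intro k hk hk1 x hx
  rw [Subgroup.mem_subgroupOf] at hk ⊢
  apply hC k hk (fun h => hk1 (Subtype.ext h))
  rw [Subgroup.mem_centralizer_iff]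
  intro g hg
  have hg' : g = (k : G) := hg
  rw [hg']
  have := congrArg Subtype.val hx
  exact this.symm

variable [Fintype (IrrCharacter ↥(Subgroup.normalizer (K : Set G)))]

include hS in
theorem mem_S_iff (φ : IrrCharacter ↥(Subgroup.normalizer (K : Set G))) :
    (φ : ↥(Subgroup.normalizer (K : Set G)) → ℂ) ∈ S ↔ φ ∈ SF (K.subgroupOf (Subgroup.normalizer (K : Set G))) := by
  rw [mem_SF, hS]
  constructor
  · rintro ⟨_, k, hk, hne⟩
    exact ⟨k, Subgroup.mem_subgroupOf.mpr hk, hne⟩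
  · rintro ⟨k, hk, hne⟩
    exact ⟨φ.2, k, Subgroup.mem_subgroupOf.mp hk, hne⟩

/-- The element of degree `0`. -/
noncomputable def beta (φ₁ φ₂ : IrrCharacter ↥(Subgroup.normalizer (K : Set G))) :
    ↥(Subgroup.normalizer (K : Set G)) → ℂ :=
  ((dd (K.subgroupOf (Subgroup.normalizer (K : Set G))) φ₂ : ℕ) : ℤ) • (φ₁ : ↥(Subgroup.normalizer (K : Set G)) → ℂ) +
    (-((dd (K.subgroupOf (Subgroup.normalizer (K : Set G))) φ₁ : ℕ) : ℤ)) • (φ₂ : ↥(Subgroup.normalizer (K : Set G)) → ℂ)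

include hS hC in
theorem beta_mem {φ₁ φ₂ : IrrCharacter ↥(Subgroup.normalizer (K : Set G))}
    (h₁ : φ₁ ∈ SF (K.subgroupOf (Subgroup.normalizer (K : Set G))))
    (h₂ : φ₂ ∈ SF (K.subgroupOf (Subgroup.normalizer (K : Set G)))) :
    beta K φ₁ φ₂ ∈ Cfsg.zspanOn S ({1}ᶜ : Set ↥(Subgroup.normalizer (K : Set G))) := by
  apply H06.mem_zspanOn_one
  · exact H06.zspan_add_mem (H06.zspan_zsmul_mem _ (H06.mem_zspan ((mem_S_iff K S hS φ₁).mpr h₁)))
      (H06.zspan_zsmul_mem _ (H06.mem_zspan ((mem_S_iff K S hS φ₂).mpr h₂)))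
  · have hf := hfrobK K hC
    simp only [beta, Pi.add_apply, Pi.smul_apply]
    rw [one_eq_charDegree (isCharacter_of_irr φ₁.2), one_eq_charDegree (isCharacter_of_irr φ₂.2),
      deg_eq _ hf h₁, deg_eq _ hf h₂]
    simp only [zsmul_eq_mul]
    push_cast
    ring

include hC in
theorem beta_class (φ₁ φ₂ : IrrCharacter ↥(Subgroup.normalizer (K : Set G))) :
    IsClassFunction _ (beta K φ₁ φ₂) := by
  intro g h
  simp only [beta, Pi.add_apply, Pi.smul_apply]
  rw [isCharacter_conj (isCharacter_of_irr φ₁.2), isCharacter_conj (isCharacter_of_irr φ₂.2)]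

include hC in
theorem beta_off {φ₁ φ₂ : IrrCharacter ↥(Subgroup.normalizer (K : Set G))}
    (h₁ : φ₁ ∈ SF (K.subgroupOf (Subgroup.normalizer (K : Set G))))
    (h₂ : φ₂ ∈ SF (K.subgroupOf (Subgroup.normalizer (K : Set G))))
    (x : ↥(Subgroup.normalizer (K : Set G))) (hx : (x : G) ∉ K) : beta K φ₁ φ₂ x = 0 := by
  have hf := hfrobK K hC
  have hx' : x ∉ K.subgroupOf (Subgroup.normalizer (K : Set G)) := fun h => hx (Subgroup.mem_subgroupOf.mp h)
  simp only [beta, Pi.add_apply, Pi.smul_apply]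
  rw [char_vanish hf φ₁.2 ((mem_SF _).mp h₁) hx', char_vanish hf φ₂.2 ((mem_SF _).mp h₂) hx']
  simp

include hstar hS hC in
theorem star_beta {φ₁ φ₂ : IrrCharacter ↥(Subgroup.normalizer (K : Set G))}
    (h₁ : φ₁ ∈ SF (K.subgroupOf (Subgroup.normalizer (K : Set G))))
    (h₂ : φ₂ ∈ SF (K.subgroupOf (Subgroup.normalizer (K : Set G)))) :
    star (beta K φ₁ φ₂) = ((dd (K.subgroupOf (Subgroup.normalizer (K : Set G))) φ₂ : ℕ) : ℤ) • star φ₁ +
      (-((dd (K.subgroupOf (Subgroup.normalizer (K : Set G))) φ₁ : ℕ) : ℤ)) • star φ₂ :=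
  H06.iso_lin hstar (H06.zspan_closed S) _ _ (H06.mem_zspan ((mem_S_iff K S hS φ₁).mpr h₁))
    (H06.mem_zspan ((mem_S_iff K S hS φ₂).mpr h₂))

include hTI hC hS hstar hext in
/-- The proportionality of the defects. -/
theorem star_sub_value {φ₁ φ₂ : IrrCharacter ↥(Subgroup.normalizer (K : Set G))}
    (h₁ : φ₁ ∈ SF (K.subgroupOf (Subgroup.normalizer (K : Set G))))
    (h₂ : φ₂ ∈ SF (K.subgroupOf (Subgroup.normalizer (K : Set G))))
    (k : ↥(Subgroup.normalizer (K : Set G))) (hk : (k : G) ∈ K) (hk1 : k ≠ 1) :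
    (dd (K.subgroupOf (Subgroup.normalizer (K : Set G))) φ₂ : ℂ) * (star φ₁ k - (φ₁ : _ → ℂ) k) =
      (dd (K.subgroupOf (Subgroup.normalizer (K : Set G))) φ₁ : ℂ) * (star φ₂ k - (φ₂ : _ → ℂ) k) := by
  have h1 := hext _ (beta_mem K hC S hS h₁ h₂)
  have h2 := star_beta K hC S hS star hstar h₁ h₂
  have h3 := ind_eq_on_K K hTI (beta K φ₁ φ₂) (beta_class K hC φ₁ φ₂) (beta_off K hC h₁ h₂) k hk hk1
  rw [← h1, h2] at h3
  simp only [beta, Pi.add_apply, Pi.smul_apply] at h3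
  simp only [zsmul_eq_mul] at h3
  push_cast at h3
  linear_combination h3

include hC hS hstar hext in
theorem inner_beta (ψ : G → ℂ) (hψ : IsClassFunction G ψ)
    {φ₁ φ₂ : IrrCharacter ↥(Subgroup.normalizer (K : Set G))}
    (h₁ : φ₁ ∈ SF (K.subgroupOf (Subgroup.normalizer (K : Set G))))
    (h₂ : φ₂ ∈ SF (K.subgroupOf (Subgroup.normalizer (K : Set G)))) :
    classInner (star (beta K φ₁ φ₂)) ψ = classInner (beta K φ₁ φ₂) (fun x : ↥(Subgroup.normalizer (K : Set G)) => ψ x) := by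
  rw [hext _ (beta_mem K hC S hS h₁ h₂), frobenius_reciprocity _ _ _ hψ]

include hC in
/-- Orthogonality to the `beta`s gives proportional inner products. -/
theorem prop_of_ortho (f : ↥(Subgroup.normalizer (K : Set G)) → ℂ)
    (hint : ∀ φ : IrrCharacter ↥(Subgroup.normalizer (K : Set G)), ∃ n : ℤ, classInner f (φ : _ → ℂ) = n)
    {φ₁ φ₂ : IrrCharacter ↥(Subgroup.normalizer (K : Set G))}
    (h : classInner (beta K φ₁ φ₂) f = 0) :
    (dd (K.subgroupOf (Subgroup.normalizer (K : Set G))) φ₂ : ℂ) * classInner f (φ₁ : _ → ℂ) =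
      (dd (K.subgroupOf (Subgroup.normalizer (K : Set G))) φ₁ : ℂ) * classInner f (φ₂ : _ → ℂ) := by
  obtain ⟨n₁, hn₁⟩ := hint φ₁
  obtain ⟨n₂, hn₂⟩ := hint φ₂
  have h₁ : classInner (φ₁ : _ → ℂ) f = n₁ := by
    rw [← classInner_comm_conj, hn₁, map_intCast]
  have h₂ : classInner (φ₂ : _ → ℂ) f = n₂ := by
    rw [← classInner_comm_conj, hn₂, map_intCast]
  rw [beta, classInner_add_left, H06.classInner_zsmul_left, H06.classInner_zsmul_left, h₁, h₂] at h
  rw [hn₁, hn₂]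
  push_cast at h
  linear_combination h

end Data

end Cfsg.Agent.H04.TIF
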